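import Cfsg.Agent.H942.S62.Iface
import Cfsg.Agent.StandardComponent.SpTwoAut

/-!
# S5919, row `Sp₆(2)`, task B1 (helper108): the automorphisms of `Sp₆(2)` are inner
-/

set_option autoImplicit false

namespace Cfsg.Agent.H108.S62

/-- **Task B1** -/
theorem autSp : Cfsg.Agent.H942.S62.AutSp := fun α => Cfsg.Agent.StandardComponent.SpTwoAut.inner α

end Cfsg.Agent.H108.S62
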